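import Cfsg.Agent.H721.FR.Base
import Cfsg.Agent.H137.FR.Count

/-!
# S4970, FR-SEM2 (helper137): reducibility without counting subspaces

`CC B c` is the centralizer of `c` in `Isom B`.

* `red_of_four_dvd`: `4 ∣ |{z ∈ CC B c : z² = 1}|` implies `Red B (closure {c} ⊔ P)` for the `2`-groups `P`;
* `red_of_three`: this is so if `V` is an orthogonal sum of three `c`-invariant nondegenerate subspaces;
* `red_of_two`: or of two such subspaces, and there is a central element of `CC B c` with square `-1`;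
* `red_of_scalar`: the case `c + c⁻¹ = τ`.
-/

set_option autoImplicit false

universe u

namespace Cfsg.Agent.H137.FR

open Cfsg Cfsg.Agent.H721.FR Cfsg.Agent.H721.SR Module

variable {F V : Type u} [Field F] [AddCommGroup V] [Module F V]

/-- the centralizer of `c` in the isometry group -/
def CC (B : V →ₗ[F] V →ₗ[F] F) (c : V ≃ₗ[F] V) : Subgroup (V ≃ₗ[F] V) := Isom B ⊓ Subgroup.centralizer {c}

theorem mem_CC {B : V →ₗ[F] V →ₗ[F] F} {c z : V ≃ₗ[F] V} : z ∈ CC B c ↔ z ∈ Isom B ∧ z * c = c * z := by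
  rw [CC, Subgroup.mem_inf, Subgroup.mem_centralizer_singleton_iff]

/-- `-1` -/
def sg (F V : Type u) [Field F] [AddCommGroup V] [Module F V] : V ≃ₗ[F] V := LinearEquiv.neg F

@[simp] theorem sg_apply (x : V) : sg F V x = -x := rfl

theorem sg_mul_sg : sg F V * sg F V = 1 := by
  ext x
  show - -x = x
  rw [neg_neg]

theorem sg_comm (g : V ≃ₗ[F] V) : g * sg F V = sg F V * g := by
  ext x
  show g (-x) = -(g x)
  rw [map_neg]

theorem sg_mem (B : V →ₗ[F] V →ₗ[F] F) : sg F V ∈ Isom B := by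
  intro x y
  show B (-x) (-y) = B x y
  rw [map_neg, map_neg, LinearMap.neg_apply, neg_neg]

theorem eq_zero_of_neg (h2 : (2 : F) ≠ 0) {x : V} (h : -x = x) : x = 0 := by
  have h1 : (2 : F) • x = 0 := by
    rw [two_smul]
    nth_rewrite 1 [← h]
    exact neg_add_cancel x
  exact (smul_eq_zero.1 h1).resolve_left h2

theorem symm_zero {B : V →ₗ[F] V →ₗ[F] F} {ε : F} (hF : Fm B ε) {x y : V} (h : B x y = 0) : B y x = 0 := by
  rw [hF.symm, h, mul_zero]

theorem isRefl {B : V →ₗ[F] V →ₗ[F] F} {ε : F} (hF : Fm B ε) : LinearMap.IsRefl B := fun _ _ h => symm_zero hF h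

theorem isCompl_perp [FiniteDimensional F V] {B : V →ₗ[F] V →ₗ[F] F} {ε : F} (hF : Fm B ε) {U : Submodule F V}
    (hU : NdOn B U) : IsCompl U (perp B U) := by
  have h1 : Disjoint U (perp B U) := by
    rw [Submodule.disjoint_def]
    intro x hx hx'
    exact hU x hx fun y hy => symm_zero hF (hx' y hy)
  have h2 := (LinearMap.BilinForm.isCompl_orthogonal_iff_disjoint (B := B) (W := U) (isRefl hF)).2
  have h3 : LinearMap.BilinForm.orthogonal B U = perp B U := rfl
  rw [h3] at h2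
  exact h2 h1

theorem ndOn_perp [FiniteDimensional F V] {B : V →ₗ[F] V →ₗ[F] F} {ε : F} (hF : Fm B ε) {U : Submodule F V}
    (hU : NdOn B U) : NdOn B (perp B U) := by
  intro x hx h
  apply hF.nondeg
  intro y
  obtain ⟨u, hu, w, hw, rfl⟩ := Submodule.mem_sup.1
    (show y ∈ U ⊔ perp B U by rw [(isCompl_perp hF hU).sup_eq_top]; exact Submodule.mem_top)
  rw [map_add, h w hw, add_zero]
  exact symm_zero hF (hx u hu)

/-- an isometry with `g U ≤ U` preserves the orthogonal complement -/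
theorem perp_inv [FiniteDimensional F V] {B : V →ₗ[F] V →ₗ[F] F} {U : Submodule F V} {g : V ≃ₗ[F] V}
    (hg : g ∈ Isom B) (hU : ∀ x ∈ U, g x ∈ U) : ∀ x ∈ perp B U, g x ∈ perp B U := by
  intro x hx y hy
  have h1 : U.map (g : V →ₗ[F] V) = U := by
    apply Submodule.eq_of_le_of_finrank_eq
    · rintro _ ⟨z, hz, rfl⟩
      exact hU z hz
    · exact LinearEquiv.finrank_map_eq g U
  rw [← h1] at hy
  obtain ⟨z, hz, rfl⟩ := hy
  show B (g z) (g x) = 0
  rw [hg]
  exact hx z hz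

/-- the involution with eigenspaces `U`, `U^perp` -/
theorem exists_inv [FiniteDimensional F V] {B : V →ₗ[F] V →ₗ[F] F} {ε : F} (hF : Fm B ε) {U : Submodule F V}
    (hU : NdOn B U) : ∃ a : V ≃ₗ[F] V, a ∈ Isom B ∧ a * a = 1 ∧ (∀ x ∈ U, a x = -x) ∧ (∀ x ∈ perp B U, a x = x) ∧
      ∀ d ∈ Isom B, (∀ x ∈ U, d x ∈ U) → a * d = d * a := by
  have hc := isCompl_perp hF hU
  let e := Submodule.prodEquivOfIsCompl U (perp B U) hc
  let a : V ≃ₗ[F] V := e.symm ≪≫ₗ ((LinearEquiv.neg F (M := U)).prodCongr (LinearEquiv.refl F (perp B U))) ≪≫ₗ e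
  have h1 : ∀ x ∈ U, a x = -x := by
    intro x hx
    have h2 : e.symm x = (⟨x, hx⟩, 0) := by
      rw [LinearEquiv.symm_apply_eq]
      simp [e]
    show e (((LinearEquiv.neg F (M := U)).prodCongr (LinearEquiv.refl F (perp B U))) (e.symm x)) = -x
    rw [h2]
    simp [e]
  have h2 : ∀ x ∈ perp B U, a x = x := by
    intro x hx
    have h2 : e.symm x = (0, ⟨x, hx⟩) := by
      rw [LinearEquiv.symm_apply_eq]
      simp [e]
    show e (((LinearEquiv.neg F (M := U)).prodCongr (LinearEquiv.refl F (perp B U))) (e.symm x)) = x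
    rw [h2]
    simp [e]
  have hdec : ∀ x : V, ∃ u ∈ U, ∃ w ∈ perp B U, u + w = x := fun x => Submodule.mem_sup.1
    (show x ∈ U ⊔ perp B U by rw [hc.sup_eq_top]; exact Submodule.mem_top)
  refine ⟨a, ?_, ?_, h1, h2, ?_⟩
  · intro x y
    obtain ⟨u, hu, w, hw, rfl⟩ := hdec x
    obtain ⟨u', hu', w', hw', rfl⟩ := hdec y
    have e1 : B u w' = 0 := hw' u hu
    have e2 : B w u' = 0 := symm_zero hF (hw u' hu')
    rw [map_add a, map_add a, h1 u hu, h2 w hw, h1 u' hu', h2 w' hw']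
    simp only [map_add, map_neg, LinearMap.add_apply, LinearMap.neg_apply, e1, e2]
    ring
  · ext x
    obtain ⟨u, hu, w, hw, rfl⟩ := hdec x
    show a (a (u + w)) = u + w
    rw [map_add, map_add, h1 u hu, h2 w hw, map_neg, h1 u hu, h2 w hw, neg_neg]
  · intro d hd hdU
    ext x
    obtain ⟨u, hu, w, hw, rfl⟩ := hdec x
    show a (d (u + w)) = d (a (u + w))
    rw [map_add, map_add, map_add, map_add, h1 u hu, h2 w hw, h1 _ (hdU u hu), h2 _ (perp_inv hd hdU w hw), map_neg]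

/-- an involution which is normalised up to sign gives a decomposition -/
theorem red_of_inv {B : V →ₗ[F] V →ₗ[F] F} {ε : F} (hF : Fm B ε) {K : Subgroup (V ≃ₗ[F] V)}
    {z : V ≃ₗ[F] V} (hz : z ∈ Isom B) (hzz : z * z = 1) (hz1 : z ≠ 1) (hzs : z ≠ sg F V)
    (hK : ∀ g ∈ K, g * z * g⁻¹ = z ∨ g * z * g⁻¹ = sg F V * z) : Red B K := by
  have hz2 : ∀ x, z (z x) = x := fun x => congrArg (fun f : V ≃ₗ[F] V => f x) hzz
  let U : Submodule F V :=
    { carrier := {x | z x = x}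
      add_mem' := fun {a b} (ha : z a = a) (hb : z b = b) => by
        show z (a + b) = a + b
        rw [map_add, ha, hb]
      zero_mem' := map_zero _
      smul_mem' := fun c x (hx : z x = x) => by
        show z (c • x) = c • x
        rw [map_smul, hx] }
  have hU : ∀ x, x ∈ U ↔ z x = x := fun x => Iff.rfl
  have hplus : ∀ x, x + z x ∈ U := fun x => by rw [hU, map_add, hz2, add_comm]
  have hperp : ∀ x, x ∈ perp B U ↔ z x = -x := by
    intro x
    constructor
    · intro hx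
      -- `x + z x` is orthogonal to everything
      have h1 : x + z x = 0 := by
        apply hF.nondeg
        intro y
        have h2 : B (y + z y) x = 0 := hx _ (hplus y)
        have h3 : B x (y + z y) = 0 := symm_zero hF h2
        have h4 : B (z x) y = B x (z y) := by
          rw [← hz (z x) y, hz2]
        rw [map_add, LinearMap.add_apply, h4, ← map_add]
        exact h3
      exact eq_neg_of_add_eq_zero_right h1
    · intro hx y hy
      have h1 : B y x = -B y x := by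
        calc B y x = B (z y) (z x) := (hz y x).symm
          _ = -B y x := by rw [hx, (hU y).1 hy, map_neg]
      have h2 : (2 : F) * B y x = 0 := by rw [two_mul]; nth_rewrite 1 [h1]; exact neg_add_cancel _
      exact (mul_eq_zero.1 h2).resolve_left hF.two
  refine ⟨U, ?_, ?_, ?_, ?_⟩
  · intro hb
    apply hzs
    ext x
    have h1 := hplus x
    rw [hb, Submodule.mem_bot] at h1
    exact eq_neg_of_add_eq_zero_right h1
  · intro ht
    apply hz1
    ext x
    have h1 : x ∈ U := by rw [ht]; exact Submodule.mem_top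
    exact h1
  · intro x hx h
    apply hF.nondeg
    intro y
    have h1 : B x (y + z y) = 0 := h _ (hplus y)
    have h2 : B x (z y) = B x y := by
      rw [← hz x (z y), hz2, (hU x).1 hx]
    rw [map_add, h2, ← two_mul] at h1
    exact (mul_eq_zero.1 h1).resolve_left hF.two
  · intro g hg
    have hmem : ∀ x, x ∈ U.map (g : V →ₗ[F] V) ↔ (g * z * g⁻¹) x = x := by
      intro x
      constructor
      · rintro ⟨y, hy, rfl⟩
        show g (z (g.symm (g y))) = g y
        rw [LinearEquiv.symm_apply_apply, (hU y).1 hy]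
      · intro h
        have h' : g (z (g.symm x)) = x := h
        refine ⟨g.symm x, ?_, g.apply_symm_apply x⟩
        apply (hU _).2
        rw [← g.symm_apply_apply (z (g.symm x)), h']
    rcases hK g hg with h | h
    · left
      ext x
      rw [hmem, h, hU]
    · right
      ext x
      rw [hmem, h, hperp]
      show -(z x) = x ↔ z x = -x
      exact ⟨fun h => by rw [← h, neg_neg, h], fun h => by rw [h, neg_neg]⟩

theorem red_of_four_dvd [Finite V] {B : V →ₗ[F] V →ₗ[F] F} {ε : F} (hF : Fm B ε)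
    {c : V ≃ₗ[F] V} {P : Subgroup (V ≃ₗ[F] V)} (hP : P ≤ Isom B) (h2 : IsPGroup 2 P)
    (hact : ∀ g ∈ P, g * c * g⁻¹ = c ∨ g * c * g⁻¹ = c⁻¹) (hV : Nontrivial V)
    (h4 : 4 ∣ (Inv2 (CC B c)).ncard) : Red B (Subgroup.closure {c} ⊔ P) := by
  have hfin : Finite (V ≃ₗ[F] V) := Finite.of_injective (fun e : V ≃ₗ[F] V => e.toEquiv) (fun a b h => by
    ext x
    exact congrArg (fun e : V ≃ V => e x) h)
  have hs1 : sg F V ≠ 1 := by
    intro h
    obtain ⟨x, hx⟩ := exists_ne (0 : V)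
    exact hx (eq_zero_of_neg hF.two (congrArg (fun f : V ≃ₗ[F] V => f x) h))
  obtain ⟨z, hz, hz1, hzs, hzP⟩ := exists_pair (A := V ≃ₗ[F] V) (s := sg F V) sg_mul_sg hs1 (fun x => sg_comm x)
    (P := P) h2 (I := Inv2 (CC B c)) (Set.toFinite _) h4 ⟨(CC B c).one_mem, one_mul 1⟩
    ⟨mem_CC.2 ⟨sg_mem B, (sg_comm c).symm⟩, sg_mul_sg⟩
    (by
      rintro z ⟨hz, hzz⟩
      refine ⟨(CC B c).mul_mem (mem_CC.2 ⟨sg_mem B, (sg_comm c).symm⟩) hz, ?_⟩
      calc sg F V * z * (sg F V * z) = sg F V * (z * sg F V) * z := by group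
        _ = (sg F V * sg F V) * (z * z) := by rw [sg_comm]; group
        _ = 1 := by rw [sg_mul_sg, hzz, one_mul])
    (by
      rintro g hg z ⟨hz, hzz⟩
      obtain ⟨hzB, hzc⟩ := mem_CC.1 hz
      refine ⟨mem_CC.2 ⟨(Isom B).mul_mem ((Isom B).mul_mem (hP hg) hzB) ((Isom B).inv_mem (hP hg)), ?_⟩, ?_⟩
      · -- `z` commutes with `g⁻¹ c g`
        have hcz : z * c⁻¹ = c⁻¹ * z := by
          rw [mul_inv_eq_iff_eq_mul, mul_assoc, hzc, ← mul_assoc, inv_mul_cancel, one_mul]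
        have h1 : g⁻¹ * c * g = c ∨ g⁻¹ * c * g = c⁻¹ := by
          rcases hact g hg with h | h
          · left
            calc g⁻¹ * c * g = g⁻¹ * (g * c * g⁻¹) * g := by rw [h]
              _ = c := by group
          · right
            have h' : g * c⁻¹ * g⁻¹ = c := by
              calc g * c⁻¹ * g⁻¹ = (g * c * g⁻¹)⁻¹ := by group
                _ = c := by rw [h, inv_inv]
            calc g⁻¹ * c * g = g⁻¹ * (g * c⁻¹ * g⁻¹) * g := by rw [h']
              _ = c⁻¹ := by group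
        have h5 : z * (g⁻¹ * c * g) = (g⁻¹ * c * g) * z := by
          rcases h1 with h | h
          · rw [h]; exact hzc
          · rw [h]; exact hcz
        calc g * z * g⁻¹ * c = g * (z * (g⁻¹ * c * g)) * g⁻¹ := by group
          _ = g * ((g⁻¹ * c * g) * z) * g⁻¹ := by rw [h5]
          _ = c * (g * z * g⁻¹) := by group
      · calc g * z * g⁻¹ * (g * z * g⁻¹) = g * (z * z) * g⁻¹ := by group
          _ = 1 := by rw [hzz]; group)
  obtain ⟨hzC, hzz⟩ := hz
  obtain ⟨hzB, hzc⟩ := mem_CC.1 hzC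
  refine red_of_inv hF hzB hzz hz1 hzs ?_
  -- the stabiliser of `{z, -z}` is a subgroup
  let N : Subgroup (V ≃ₗ[F] V) :=
    { carrier := {g | g * z * g⁻¹ = z ∨ g * z * g⁻¹ = sg F V * z}
      one_mem' := Or.inl (by group)
      mul_mem' := by
        intro a b ha hb
        have e1 : a * b * z * (a * b)⁻¹ = a * (b * z * b⁻¹) * a⁻¹ := by group
        have e2 : a * (sg F V * z) * a⁻¹ = sg F V * (a * z * a⁻¹) := by
          rw [← mul_assoc, sg_comm]; group
        show a * b * z * (a * b)⁻¹ = z ∨ a * b * z * (a * b)⁻¹ = sg F V * z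
        rw [e1]
        rcases hb with hb | hb <;> rw [hb]
        · exact ha
        · rw [e2]
          rcases ha with ha | ha <;> rw [ha]
          · exact Or.inr rfl
          · left
            rw [← mul_assoc, sg_mul_sg, one_mul]
      inv_mem' := by
        intro a ha
        show a⁻¹ * z * a⁻¹⁻¹ = z ∨ a⁻¹ * z * a⁻¹⁻¹ = sg F V * z
        rcases ha with ha | ha
        · left
          calc a⁻¹ * z * a⁻¹⁻¹ = a⁻¹ * (a * z * a⁻¹) * a := by rw [ha]; group
            _ = z := by group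
        · right
          have h3 : z = a⁻¹ * (sg F V * z) * a := by
            calc z = a⁻¹ * (a * z * a⁻¹) * a := by group
              _ = _ := by rw [ha]
          have h4 : a⁻¹ * (sg F V * z) * a = sg F V * (a⁻¹ * z * a) := by
            rw [← mul_assoc, sg_comm]; group
          rw [h4] at h3
          calc a⁻¹ * z * a⁻¹⁻¹ = (sg F V * sg F V) * (a⁻¹ * z * a) := by rw [sg_mul_sg]; group
            _ = sg F V * (sg F V * (a⁻¹ * z * a)) := by rw [mul_assoc]
            _ = sg F V * z := by rw [← h3] }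
  have hN : Subgroup.closure {c} ⊔ P ≤ N := by
    refine sup_le ?_ (fun g hg => hzP g hg)
    rw [Subgroup.closure_le]
    rintro _ rfl
    left
    rw [← hzc]
    group
  exact fun g hg => hN hg

theorem ne_sg {a : V ≃ₗ[F] V} (h2 : (2 : F) ≠ 0) {x : V} (hx : x ≠ 0) (h : a x = x) : a ≠ sg F V := by
  rintro rfl
  exact hx (eq_zero_of_neg h2 h)

theorem ne_one {a : V ≃ₗ[F] V} (h2 : (2 : F) ≠ 0) {x : V} (hx : x ≠ 0) (h : a x = -x) : a ≠ 1 := by
  rintro rfl
  exact hx (eq_zero_of_neg h2 h.symm)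

/-- **Three orthogonal `c`-invariant summands.** -/
theorem red_of_three [Finite V] [FiniteDimensional F V] {B : V →ₗ[F] V →ₗ[F] F} {ε : F} (hF : Fm B ε)
    {c : V ≃ₗ[F] V} (hc : c ∈ Isom B) {P : Subgroup (V ≃ₗ[F] V)} (hP : P ≤ Isom B) (h2 : IsPGroup 2 P)
    (hact : ∀ g ∈ P, g * c * g⁻¹ = c ∨ g * c * g⁻¹ = c⁻¹)
    {U₁ U₂ : Submodule F V} (hc₁ : ∀ x ∈ U₁, c x ∈ U₁) (hc₂ : ∀ x ∈ U₂, c x ∈ U₂) (hn₁ : NdOn B U₁)
    (hn₂ : NdOn B U₂) (h12 : U₂ ≤ perp B U₁) (hb₁ : U₁ ≠ ⊥) (hb₂ : U₂ ≠ ⊥) (ht : U₁ ⊔ U₂ ≠ ⊤) :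
    Red B (Subgroup.closure {c} ⊔ P) := by
  have h21 : U₁ ≤ perp B U₂ := fun x hx y hy => symm_zero hF (h12 hy x hx)
  obtain ⟨a, haB, haa, ha1, ha2, hac⟩ := exists_inv hF hn₁
  obtain ⟨b, hbB, hbb, hb1, hb2, hbc⟩ := exists_inv hF hn₂
  obtain ⟨x₁, hx₁, hx₁0⟩ := Submodule.exists_mem_ne_zero_of_ne_bot hb₁
  obtain ⟨x₂, hx₂, hx₂0⟩ := Submodule.exists_mem_ne_zero_of_ne_bot hb₂
  -- a vector orthogonal to both
  have hnd : NdOn B (U₁ ⊔ U₂) := by
    intro x hx h
    obtain ⟨u, hu, w, hw, rfl⟩ := Submodule.mem_sup.1 hx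
    have e1 : u = 0 := by
      apply hn₁ u hu
      intro y hy
      have h3 := h y (Submodule.mem_sup_left hy)
      rw [map_add, LinearMap.add_apply, symm_zero hF (h12 hw y hy), add_zero] at h3
      exact h3
    have e2 : w = 0 := by
      apply hn₂ w hw
      intro y hy
      have h3 := h y (Submodule.mem_sup_right hy)
      rw [map_add, LinearMap.add_apply, h12 hy u hu, zero_add] at h3
      exact h3
    rw [e1, e2, add_zero]
  have h3 : perp B (U₁ ⊔ U₂) ≠ ⊥ := by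
    intro h
    have := (isCompl_perp hF hnd).sup_eq_top
    rw [h, sup_bot_eq] at this
    exact ht this
  obtain ⟨x₃, hx₃, hx₃0⟩ := Submodule.exists_mem_ne_zero_of_ne_bot h3
  have hx31 : x₃ ∈ perp B U₁ := fun y hy => hx₃ y (Submodule.mem_sup_left hy)
  have hx32 : x₃ ∈ perp B U₂ := fun y hy => hx₃ y (Submodule.mem_sup_right hy)
  refine red_of_four_dvd hF hP h2 hact ⟨x₁, 0, hx₁0⟩ ?_
  have hs1 : sg F V ≠ 1 := ne_one hF.two hx₁0 rfl
  have hba : b * a = a * b := hbc a haB (fun x hx => by rw [ha2 x (h12 hx)]; exact hx)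
  refine four_dvd_of_three (s := sg F V) (a := a) (b := b) ?_ (mem_CC.2 ⟨sg_mem B, (sg_comm c).symm⟩) sg_mul_sg hs1
    (fun x _ => sg_comm x) (mem_CC.2 ⟨haB, hac c hc hc₁⟩) haa (ne_one hF.two hx₁0 (ha1 _ hx₁))
    (ne_sg hF.two hx₂0 (ha2 _ (h12 hx₂))) (mem_CC.2 ⟨hbB, hbc c hc hc₂⟩) hbb (ne_one hF.two hx₂0 (hb1 _ hx₂))
    (ne_sg hF.two hx₁0 (hb2 _ (h21 hx₁))) hba.symm ?_ ?_
  · have hfin : Finite (V ≃ₗ[F] V) := Finite.of_injective (fun e : V ≃ₗ[F] V => e.toEquiv) (fun a b h => by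
      ext x
      exact congrArg (fun e : V ≃ V => e x) h)
    exact Set.toFinite _
  · refine ne_one hF.two hx₁0 ?_
    show a (b x₁) = -x₁
    rw [hb2 _ (h21 hx₁), ha1 _ hx₁]
  · refine ne_sg hF.two hx₃0 ?_
    show a (b x₃) = x₃
    rw [hb2 _ hx32, ha2 _ hx31]

/-- **Two orthogonal `c`-invariant summands and a central element with square `-1`.** -/
theorem red_of_two [Finite V] [FiniteDimensional F V] {B : V →ₗ[F] V →ₗ[F] F} {ε : F} (hF : Fm B ε)
    {c : V ≃ₗ[F] V} (hc : c ∈ Isom B) {P : Subgroup (V ≃ₗ[F] V)} (hP : P ≤ Isom B) (h2 : IsPGroup 2 P)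
    (hact : ∀ g ∈ P, g * c * g⁻¹ = c ∨ g * c * g⁻¹ = c⁻¹)
    {U : Submodule F V} (hcU : ∀ x ∈ U, c x ∈ U) (hn : NdOn B U) (hb : U ≠ ⊥) (ht : U ≠ ⊤)
    {j : V ≃ₗ[F] V} (hj : j ∈ CC B c) (hjj : j * j = sg F V) (hjc : ∀ x ∈ CC B c, x * j = j * x) :
    Red B (Subgroup.closure {c} ⊔ P) := by
  obtain ⟨a, haB, haa, ha1, ha2, hac⟩ := exists_inv hF hn
  obtain ⟨x₁, hx₁, hx₁0⟩ := Submodule.exists_mem_ne_zero_of_ne_bot hb
  have h3 : perp B U ≠ ⊥ := by
    intro h
    have := (isCompl_perp hF hn).sup_eq_top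
    rw [h, sup_bot_eq] at this
    exact ht this
  obtain ⟨x₃, hx₃, hx₃0⟩ := Submodule.exists_mem_ne_zero_of_ne_bot h3
  refine red_of_four_dvd hF hP h2 hact ⟨x₁, 0, hx₁0⟩ ?_
  refine four_dvd_of_four (s := sg F V) (j := j) (e := a) ?_ (mem_CC.2 ⟨sg_mem B, (sg_comm c).symm⟩) sg_mul_sg
    (ne_one hF.two hx₁0 rfl) (fun x _ => sg_comm x) hj hjj hjc (mem_CC.2 ⟨haB, hac c hc hcU⟩) haa
    (ne_one hF.two hx₁0 (ha1 _ hx₁)) (ne_sg hF.two hx₃0 (ha2 _ hx₃))
  have hfin : Finite (V ≃ₗ[F] V) := Finite.of_injective (fun e : V ≃ₗ[F] V => e.toEquiv) (fun a b h => by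
    ext x
    exact congrArg (fun e : V ≃ V => e x) h)
  exact Set.toFinite _

end Cfsg.Agent.H137.FR
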